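import Cfsg.Agent.H720.HT.DD
import Cfsg.Agent.ChevalleyStructure.UnipProd
import Cfsg.Agent.S2326

/-!
# S4933, own characteristic: `Q'' ≠ 1` in the Chevalley groups `F₄, E₆, E₇, E₈, G₂` (`p ≠ 3`) (helper218)
-/

set_option autoImplicit false

namespace Cfsg.Agent.H218.HT

open Cfsg Cfsg.Lie Cfsg.Agent.ChevalleyStructure Cfsg.Agent.ChevalleyStructure.Elts
  Cfsg.Agent.ChevalleyStructure.UnipOrd
open Cfsg.Agent.H720.HT (DD)
open scoped commutatorElement

universe u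

variable {D : ChevalleyDatum} (hD : UnipOrd.InList D) {F : Type u} [Field F]

/-- the commutator formula -/
theorem comm_xG {r s : ℕ} (hr : r < D.nroots) (hs : s < D.nroots) (hrs : s ≠ r) (hneg : s ≠ D.neg r) (t u : F) :
    ⁅xG hD s (-u), xG hD r (-t)⁆ = wordG hD (D.commWord F r s t u) := by
  have h := UnipProd.xG_comm hD hr hs hrs hneg t u
  rw [commutatorElement_def, xG_inv, xG_inv, neg_neg, neg_neg]
  have h2 : xG hD s (-u) * xG hD r (-t) * xG hD s u * xG hD r t =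
      (xG hD s u)⁻¹ * (xG hD r t)⁻¹ * (xG hD s u * xG hD r t) := by
    rw [xG_inv, xG_inv]; group
  rw [h2, h]
  group

/-- one root -/
theorem comm_one {r s k : ℕ} {c : ℤ} (hr : r < D.nroots) (hs : s < D.nroots) (hrs : s ≠ r) (hneg : s ≠ D.neg r)
    (h : D.commTerms r s = [(k, c, 1, 1)]) (t u : F) :
    ⁅xG hD s u, xG hD r t⁆ = xG hD k ((c : F) * t * (-u)) := by
  have h1 := comm_xG hD hr hs hrs hneg (-t) (-u)
  rw [neg_neg, neg_neg] at h1
  rw [h1]
  unfold ChevalleyDatum.commWord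
  rw [h]
  show wordG hD [(k, (c : F) * (- -t) ^ 1 * (-u) ^ 1)] = _
  rw [wordG_cons, wordG_nil, mul_one, neg_neg, pow_one, pow_one]

include hD in
theorem isPGroup_pos {p : ℕ} [Fact p.Prime] [CharP F p] [Finite F] :
    IsPGroup p ↥((D.posUnipotent F).subgroupOf (D.group F)) := by
  have := Fintype.ofFinite F
  obtain ⟨P, hP⟩ := Cfsg.Agent.S2326.result (F := F) p D hD
  rw [← hP]
  exact P.2

theorem sign_ne {c : ℤ} (hc : c = 1 ∨ c = -1) : (c : F) ≠ 0 := by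
  rcases hc with rfl | rfl
  · rw [Int.cast_one]; exact one_ne_zero
  · rw [Int.cast_neg, Int.cast_one]; exact neg_ne_zero.2 one_ne_zero

/-- positive roots and no repetitions -/
def okPair (D : ChevalleyDatum) (r s : ℕ) : Prop :=
  D.nroots / 2 ≤ r ∧ r < D.nroots ∧ D.nroots / 2 ≤ s ∧ s < D.nroots ∧ s ≠ r

instance (D : ChevalleyDatum) (r s : ℕ) : Decidable (okPair D r s) := by unfold okPair; infer_instance

include hD in
theorem pos_of {r : ℕ} (h1 : D.nroots / 2 ≤ r) (h2 : r < D.nroots) : D.IsPosRoot r :=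
  (isPosRoot_iff hD r).2 ⟨h1, h2⟩

include hD in
theorem dd_of {p : ℕ} [Fact p.Prime] [CharP F p] [Finite F] {r₁ s₁ k₁ r₂ s₂ k₂ k₃ : ℕ} {c₁ c₂ c₃ : ℤ}
    (o₁ : okPair D r₁ s₁) (o₂ : okPair D r₂ s₂) (o₃ : okPair D k₂ k₁)
    (h₁ : D.commTerms r₁ s₁ = [(k₁, c₁, 1, 1)]) (h₂ : D.commTerms r₂ s₂ = [(k₂, c₂, 1, 1)])
    (h₃ : D.commTerms k₂ k₁ = [(k₃, c₃, 1, 1)]) (hk : k₃ < D.nroots) (e₁ : c₁ = 1 ∨ c₁ = -1) (e₂ : c₂ = 1 ∨ c₂ = -1)
    (e₃ : c₃ = 1 ∨ c₃ = -1) : DD p ↥(D.group F) := by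
  have hpos : ∀ {r : ℕ}, D.nroots / 2 ≤ r → r < D.nroots → ∀ t : F,
      (⟨xG hD r t, xG_mem_group hD r t⟩ : ↥(D.group F)) ∈ (D.posUnipotent F).subgroupOf (D.group F) :=
    fun h1 h2 t => Subgroup.mem_subgroupOf.2 (xG_mem_posUnipotent hD (pos_of hD h1 h2) t)
  have hne : ∀ {r s : ℕ}, okPair D r s → s ≠ D.neg r := fun o =>
    UnipProd.ne_neg_of_pos hD (pos_of hD o.1 o.2.1) (pos_of hD o.2.2.1 o.2.2.2.1)
  refine DD.of_mem _ (isPGroup_pos hD) (hpos o₁.2.2.1 o₁.2.2.2.1 1) (hpos o₁.1 o₁.2.1 1) (hpos o₂.2.2.1 o₂.2.2.2.1 1)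
    (hpos o₂.1 o₂.2.1 1) ?_
  intro h
  have h4 : ⁅⁅xG hD s₁ (1 : F), xG hD r₁ (1 : F)⁆, ⁅xG hD s₂ (1 : F), xG hD r₂ (1 : F)⁆⁆ = 1 := congrArg Subtype.val h
  rw [comm_one hD o₁.2.1 o₁.2.2.2.1 o₁.2.2.2.2 (hne o₁) h₁, comm_one hD o₂.2.1 o₂.2.2.2.1 o₂.2.2.2.2 (hne o₂) h₂,
    comm_one hD o₃.2.1 o₃.2.2.2.1 o₃.2.2.2.2 (hne o₃) h₃, xG_eq_one_iff hD hk] at h4
  have f₁ := sign_ne (F := F) e₁
  have f₂ := sign_ne (F := F) e₂
  have f₃ := sign_ne (F := F) e₃
  revert h4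
  simp [f₁, f₂, f₃]

/-- commuting root groups -/
theorem comm_none {r s : ℕ} (hr : r < D.nroots) (hs : s < D.nroots) (hrs : s ≠ r) (hneg : s ≠ D.neg r)
    (h : D.commTerms r s = []) (t u : F) : xG hD s u * xG hD r t = xG hD r t * xG hD s u := by
  have h1 := UnipProd.xG_comm hD hr hs hrs hneg t u
  have h2 : D.commWord F r s t u = [] := by
    unfold ChevalleyDatum.commWord
    rw [h]
    rfl
  rw [h2, wordG_nil, mul_one] at h1
  exact h1

variable (F)

/-- **`G₂(q)`, `q > 2`, `p ≠ 3`** -/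
theorem dd_G2 {p : ℕ} [Fact p.Prime] [CharP F p] [Finite F] (h3 : (3 : F) ≠ 0) {u : F} (hu0 : u ≠ 0) (hu1 : u ≠ 1) :
    DD p ↥(chevG2.group F) := by
  have hD : UnipOrd.InList chevG2 := by simp
  have hpos : ∀ {r : ℕ}, chevG2.nroots / 2 ≤ r → r < chevG2.nroots → ∀ t : F,
      (⟨xG hD r t, xG_mem_group hD r t⟩ : ↥(chevG2.group F)) ∈ (chevG2.posUnipotent F).subgroupOf (chevG2.group F) :=
    fun h1 h2 t => Subgroup.mem_subgroupOf.2 (xG_mem_posUnipotent hD (pos_of hD h1 h2) t)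
  -- the commutators of `x₇` and `x₆`
  have hW : ∀ u : F, ⁅xG hD 7 (-u), xG hD 6 (-(-1 : F))⁆ = xG hD 8 u * (xG hD 9 (u ^ 2) * (xG hD 10 (-u ^ 3) *
      xG hD 11 (-2 * u ^ 3))) := by
    intro u
    rw [comm_xG hD (by decide +kernel) (by decide +kernel) (by norm_num) (by decide +kernel) (-1) u]
    unfold ChevalleyDatum.commWord
    rw [show chevG2.commTerms 6 7 = [(8, 1, 1, 1), (9, 1, 1, 2), (10, -1, 1, 3), (11, -2, 2, 3)] by decide +kernel]
    show wordG hD [(8, ((1 : ℤ) : F) * (- -1) ^ 1 * u ^ 1), (9, ((1 : ℤ) : F) * (- -1) ^ 1 * u ^ 2),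
      (10, ((-1 : ℤ) : F) * (- -1) ^ 1 * u ^ 3), (11, ((-2 : ℤ) : F) * (- -1) ^ 2 * u ^ 3)] = _
    rw [wordG_cons, wordG_cons, wordG_cons, wordG_cons, wordG_nil, mul_one]
    norm_num
  have c89 : ∀ a b : F, xG hD 9 b * xG hD 8 a = xG hD 8 a * (xG hD 9 b * xG hD 11 (-3 * a * b)) := by
    intro a b
    have h1 := UnipProd.xG_comm hD (r := 8) (s := 9) (by decide +kernel) (by decide +kernel) (by norm_num)
      (by decide +kernel) a b
    unfold ChevalleyDatum.commWord at h1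
    rw [show chevG2.commTerms 8 9 = [(11, 3, 1, 1)] by decide +kernel] at h1
    rw [h1]
    show _ * wordG hD [(11, ((3 : ℤ) : F) * (-a) ^ 1 * b ^ 1)] = _
    rw [wordG_cons, wordG_nil, mul_one, mul_assoc]
    congr 3
    push_cast
    ring
  have c8_10 : ∀ a b : F, xG hD 10 b * xG hD 8 a = xG hD 8 a * xG hD 10 b := comm_none hD (by decide +kernel)
    (by decide +kernel) (by norm_num) (by decide +kernel) (by decide +kernel)
  have c8_11 : ∀ a b : F, xG hD 11 b * xG hD 8 a = xG hD 8 a * xG hD 11 b := comm_none hD (by decide +kernel)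
    (by decide +kernel) (by norm_num) (by decide +kernel) (by decide +kernel)
  have c9_10 : ∀ a b : F, xG hD 10 b * xG hD 9 a = xG hD 9 a * xG hD 10 b := comm_none hD (by decide +kernel)
    (by decide +kernel) (by norm_num) (by decide +kernel) (by decide +kernel)
  have c9_11 : ∀ a b : F, xG hD 11 b * xG hD 9 a = xG hD 9 a * xG hD 11 b := comm_none hD (by decide +kernel)
    (by decide +kernel) (by norm_num) (by decide +kernel) (by decide +kernel)
  have c10_11 : ∀ a b : F, xG hD 11 b * xG hD 10 a = xG hD 10 a * xG hD 11 b := comm_none hD (by decide +kernel)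
    (by decide +kernel) (by norm_num) (by decide +kernel) (by decide +kernel)
  -- products
  have hprod : ∀ a b c d a' b' c' d' : F,
      xG hD 8 a * (xG hD 9 b * (xG hD 10 c * xG hD 11 d)) * (xG hD 8 a' * (xG hD 9 b' * (xG hD 10 c' * xG hD 11 d'))) =
        xG hD 8 (a + a') * (xG hD 9 (b + b') * (xG hD 10 (c + c') * xG hD 11 (-3 * a' * b + d + d'))) := by
    intro a b c d a' b' c' d'
    have e1 : xG hD 10 c * xG hD 11 d * xG hD 8 a' = xG hD 8 a' * (xG hD 10 c * xG hD 11 d) := by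
      rw [mul_assoc, c8_11, ← mul_assoc, c8_10, mul_assoc]
    have e2 : xG hD 11 (-3 * a' * b) * (xG hD 10 c * xG hD 11 d) = xG hD 10 c * xG hD 11 (-3 * a' * b + d) := by
      rw [← mul_assoc, c10_11, mul_assoc, xG_add]
    have e3 : xG hD 10 c * xG hD 11 (-3 * a' * b + d) * xG hD 9 b' = xG hD 9 b' * (xG hD 10 c * xG hD 11 (-3 * a' * b + d)) := by
      rw [mul_assoc, c9_11, ← mul_assoc, c9_10, mul_assoc]
    calc xG hD 8 a * (xG hD 9 b * (xG hD 10 c * xG hD 11 d)) * (xG hD 8 a' * (xG hD 9 b' * (xG hD 10 c' * xG hD 11 d')))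
        = xG hD 8 a * xG hD 9 b * (xG hD 10 c * xG hD 11 d * xG hD 8 a') * (xG hD 9 b' * (xG hD 10 c' * xG hD 11 d')) := by
          simp only [mul_assoc]
      _ = xG hD 8 a * (xG hD 9 b * xG hD 8 a') * (xG hD 10 c * xG hD 11 d) * (xG hD 9 b' * (xG hD 10 c' * xG hD 11 d')) := by
          rw [e1]; simp only [mul_assoc]
      _ = xG hD 8 a * xG hD 8 a' * xG hD 9 b * (xG hD 11 (-3 * a' * b) * (xG hD 10 c * xG hD 11 d)) *
            (xG hD 9 b' * (xG hD 10 c' * xG hD 11 d')) := by rw [c89]; simp only [mul_assoc]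
      _ = xG hD 8 (a + a') * xG hD 9 b * (xG hD 10 c * xG hD 11 (-3 * a' * b + d) * xG hD 9 b') *
            (xG hD 10 c' * xG hD 11 d') := by rw [e2, xG_add]; simp only [mul_assoc]
      _ = xG hD 8 (a + a') * (xG hD 9 b * xG hD 9 b') * (xG hD 10 c * (xG hD 11 (-3 * a' * b + d) * xG hD 10 c') *
            xG hD 11 d') := by rw [e3]; simp only [mul_assoc]
      _ = _ := by
          rw [c10_11, xG_add]
          have e4 : xG hD 10 c * (xG hD 10 c' * xG hD 11 (-3 * a' * b + d)) * xG hD 11 d' =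
              xG hD 10 c * xG hD 10 c' * (xG hD 11 (-3 * a' * b + d) * xG hD 11 d') := by simp only [mul_assoc]
          rw [e4, xG_add, xG_add]
          simp only [mul_assoc]
  refine DD.of_mem _ (isPGroup_pos hD) (hpos (r := 7) (by decide +kernel) (by decide +kernel) (-1))
    (hpos (r := 6) (by decide +kernel) (by decide +kernel) (- -1)) (hpos (r := 7) (by decide +kernel)
    (by decide +kernel) (-u)) (hpos (r := 6) (by decide +kernel) (by decide +kernel) (- -1)) ?_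
  intro h
  have h4 : ⁅⁅xG hD 7 (-1 : F), xG hD 6 (-(-1 : F))⁆, ⁅xG hD 7 (-u), xG hD 6 (-(-1 : F))⁆⁆ = 1 :=
    congrArg Subtype.val h
  rw [hW 1, hW u, commutatorElement_eq_one_iff_mul_comm, hprod, hprod] at h4
  have h5 : xG hD 11 (-3 * u * 1 ^ 2 + -2 * 1 ^ 3 + -2 * u ^ 3 : F) =
      xG hD 11 (-3 * 1 * u ^ 2 + -2 * u ^ 3 + -2 * 1 ^ 3 : F) := by
    have e8 : (1 : F) + u = u + 1 := add_comm _ _
    have e9 : (1 : F) ^ 2 + u ^ 2 = u ^ 2 + 1 ^ 2 := add_comm _ _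
    have e10 : -(1 : F) ^ 3 + -u ^ 3 = -u ^ 3 + -1 ^ 3 := add_comm _ _
    rw [e8, e9, e10] at h4
    exact mul_left_cancel (mul_left_cancel (mul_left_cancel h4))
  have h6 := xG_injective hD (by decide +kernel) h5
  have h7 : (3 : F) * (u * (u - 1)) = 0 := by linear_combination h6
  rcases mul_eq_zero.1 h7 with h8 | h8
  · exact h3 h8
  rcases mul_eq_zero.1 h8 with h9 | h9
  · exact hu0 h9
  · exact hu1 (sub_eq_zero.1 h9)

theorem dd_F4 {p : ℕ} [Fact p.Prime] [CharP F p] [Finite F] : DD p ↥(chevF4.group F) :=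
  dd_of (D := chevF4) (by simp) (r₁ := 24) (s₁ := 25) (k₁ := 26) (c₁ := 1) (r₂ := 30) (s₂ := 42) (k₂ := 45) (c₂ := -1)
    (k₃ := 47) (c₃ := -1) (by decide +kernel) (by decide +kernel) (by decide +kernel) (by decide +kernel)
    (by decide +kernel) (by decide +kernel) (by decide +kernel) (Or.inl rfl) (Or.inr rfl) (Or.inr rfl)

theorem dd_E6 {p : ℕ} [Fact p.Prime] [CharP F p] [Finite F] : DD p ↥(chevE6.group F) :=
  dd_of (D := chevE6) (by simp) (r₁ := 36) (s₁ := 37) (k₁ := 38) (c₁ := 1) (r₂ := 39) (s₂ := 42) (k₂ := 43) (c₂ := 1)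
    (k₃ := 45) (c₃ := -1) (by decide +kernel) (by decide +kernel) (by decide +kernel) (by decide +kernel)
    (by decide +kernel) (by decide +kernel) (by decide +kernel) (Or.inl rfl) (Or.inl rfl) (Or.inr rfl)

theorem dd_E7 {p : ℕ} [Fact p.Prime] [CharP F p] [Finite F] : DD p ↥(chevE7.group F) :=
  dd_of (D := chevE7) (by simp) (r₁ := 63) (s₁ := 64) (k₁ := 65) (c₁ := 1) (r₂ := 66) (s₂ := 69) (k₂ := 70) (c₂ := 1)
    (k₃ := 72) (c₃ := -1) (by decide +kernel) (by decide +kernel) (by decide +kernel) (by decide +kernel)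
    (by decide +kernel) (by decide +kernel) (by decide +kernel) (Or.inl rfl) (Or.inl rfl) (Or.inr rfl)

theorem dd_E8 {p : ℕ} [Fact p.Prime] [CharP F p] [Finite F] : DD p ↥(chevE8.group F) :=
  dd_of (D := chevE8) (by simp) (r₁ := 120) (s₁ := 121) (k₁ := 122) (c₁ := 1) (r₂ := 123) (s₂ := 126) (k₂ := 127)
    (c₂ := 1) (k₃ := 129) (c₃ := -1) (by decide +kernel) (by decide +kernel) (by decide +kernel) (by decide +kernel)
    (by decide +kernel) (by decide +kernel) (by decide +kernel) (Or.inl rfl) (Or.inl rfl) (Or.inr rfl)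

end Cfsg.Agent.H218.HT
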