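import Cfsg.Agent.H218.HT.DDChev
import Cfsg.Agent.ChevalleyStructure.D4Perfect
import Cfsg.Agent.ChevalleyStructure.D4U

/-!
# S4933, own characteristic: `Q'' ≠ 1` in `³D₄(q)` (helper218)
-/

set_option autoImplicit false

namespace Cfsg.Agent.H218.HT

open Cfsg Cfsg.Lie

/-- the positive root elements generate a `p`-group inside every subgroup -/
theorem isPGroup_pos_subgroupOf {D : ChevalleyDatum} (hD : Cfsg.Agent.ChevalleyStructure.UnipOrd.InList D)
    {F : Type*} [Field F] {p : ℕ} [Fact p.Prime] [CharP F p] [Finite F] (S : Subgroup (GL D.Idx F)) :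
    IsPGroup p ↥((D.posUnipotent F).subgroupOf S) := by
  have h := isPGroup_pos hD (F := F) (p := p)
  rintro ⟨⟨g, hgS⟩, hg⟩
  have hg' : g ∈ D.posUnipotent F := Subgroup.mem_subgroupOf.1 hg
  have hgG : g ∈ D.group F := Cfsg.Agent.ChevalleyStructure.Elts.posUnipotent_le_group hD F hg'
  obtain ⟨k, hk⟩ := h ⟨⟨g, hgG⟩, Subgroup.mem_subgroupOf.2 hg'⟩
  refine ⟨k, ?_⟩
  have hk2 : g ^ p ^ k = 1 := congrArg (fun x => ((x : D.group F) : GL D.Idx F)) (congrArg Subtype.val hk)
  exact Subtype.ext (Subtype.ext hk2)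

namespace D4

open Cfsg.Agent.ChevalleyStructure
open Cfsg.Agent.ChevalleyStructure.D4Comm (xG xG_comm xG_add xG_zero xG_neg cval)
open Cfsg.Agent.ChevalleyStructure.D4CommTab (cm)
open Cfsg.Agent.H720.HT (DD)
open scoped commutatorElement

variable {K : Type*} [Field K]

theorem c_some {r s k : ℕ} {c : ℤ} (hr : 12 ≤ r ∧ r < 24) (hs : 12 ≤ s ∧ s < 24) (hne : s ≠ r)
    (h : cm r s = some (k, c)) (t u : K) (z : GL chevD4.Idx K) :
    xG r t * (xG s u * z) = xG k ((c : K) * (t * u)) * (xG s u * (xG r t * z)) := by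
  have h1 := xG_comm (F := K) hr.1 hr.2 hs.1 hs.2 hne t u
  rw [cval, h, commutatorElement_def] at h1
  simp only at h1
  rw [← h1]
  group

theorem c_none {r s : ℕ} (hr : 12 ≤ r ∧ r < 24) (hs : 12 ≤ s ∧ s < 24) (hne : s ≠ r)
    (h : cm r s = none) (t u : K) : xG r t * xG s u = xG s u * xG r t := by
  have h1 := xG_comm (F := K) hr.1 hr.2 hs.1 hs.2 hne t u
  rw [cval, h] at h1
  simp only at h1
  exact commutatorElement_eq_one_iff_mul_comm.1 h1

theorem z_comm {r : ℕ} (hr : 12 ≤ r ∧ r < 24) (t v : K) : xG r t * xG 23 v = xG 23 v * xG r t := by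
  by_cases h : r = 23
  · subst h
    rw [← xG_add, ← xG_add, add_comm]
  · refine c_none hr (by norm_num) (Ne.symm h) ?_ t v
    obtain ⟨h1, h2⟩ := hr
    have : ∀ r ∈ List.range' 12 11, cm r 23 = none := by decide +kernel
    exact this r (by rw [List.mem_range']; exact ⟨r - 12, by omega, by omega⟩)

/-- structure constants modulo `X₂₃` -/
def cc (r s : ℕ) : ℤ :=
  if r = s then 0 else match cm r s with
  | none => 0
  | some kc => kc.2

/-- the roots of height at least 2 and different from the highest one -/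
def Rt : List ℕ := [15, 16, 17, 19, 20, 21, 22]

theorem cc_spec : ∀ r ∈ Rt, ∀ s ∈ Rt, s ≠ r →
    (cm r s = none ∧ cc r s = 0) ∨ cm r s = some (23, cc r s) := by decide +kernel

theorem Rt_bd : ∀ r ∈ Rt, 12 ≤ r ∧ r < 24 := by decide

theorem base {r s : ℕ} (hr : r ∈ Rt) (hs : s ∈ Rt) (a b : K) :
    xG r a * xG s b = xG s b * xG r a * xG 23 ((cc r s : K) * (a * b)) := by
  by_cases hrs : s = r
  · subst hrs
    rw [← xG_add, ← xG_add, add_comm]
    simp [cc, xG_zero]
  have hr' : 12 ≤ r ∧ r < 24 := Rt_bd r hr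
  have hs' : 12 ≤ s ∧ s < 24 := Rt_bd s hs
  rcases cc_spec r hr s hs hrs with ⟨h1, h2⟩ | h1
  · rw [h2, c_none hr' hs' hrs h1]
    simp [xG_zero]
  · have h2 := c_some hr' hs' hrs h1 a b 1
    rw [mul_one, mul_one] at h2
    rw [h2, mul_assoc (xG s b), z_comm hr', ← mul_assoc (xG s b), z_comm hs', mul_assoc]

def pr (l : List (ℕ × K)) : GL chevD4.Idx K := (l.map fun x => xG x.1 x.2).prod

theorem pr_cons (r : ℕ) (a : K) (l : List (ℕ × K)) : pr ((r, a) :: l) = xG r a * pr l := List.prod_cons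

theorem pr_z (l : List (ℕ × K)) (hl : ∀ x ∈ l, x.1 ∈ Rt) (v : K) : pr l * xG 23 v = xG 23 v * pr l := by
  induction l with
  | nil => simp [pr]
  | cons x l ih =>
    obtain ⟨r, a⟩ := x
    have hr := hl (r, a) (List.mem_cons_self ..)
    rw [pr_cons, mul_assoc, ih (fun y hy => hl y (List.mem_cons_of_mem _ hy)), ← mul_assoc,
      z_comm (Rt_bd r hr), mul_assoc]

def ff (r : ℕ) (a : K) (m : List (ℕ × K)) : K := (m.map fun y => (cc r y.1 : K) * (a * y.2)).sum

theorem step {r : ℕ} (hr : r ∈ Rt) (a : K) (m : List (ℕ × K)) (hm : ∀ x ∈ m, x.1 ∈ Rt) :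
    xG r a * pr m = pr m * xG r a * xG 23 (ff r a m) := by
  induction m with
  | nil => simp [pr, ff, xG_zero]
  | cons x m ih =>
    obtain ⟨s, b⟩ := x
    have hs := hm (s, b) (List.mem_cons_self ..)
    have hm' : ∀ x ∈ m, x.1 ∈ Rt := fun y hy => hm y (List.mem_cons_of_mem _ hy)
    have h1 : ff r a ((s, b) :: m) = (cc r s : K) * (a * b) + ff r a m := List.sum_cons
    rw [pr_cons, ← mul_assoc, base hr hs, h1, xG_add, mul_assoc _ (xG 23 _) (pr m), ← pr_z m hm', mul_assoc (xG s b),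
      ← mul_assoc (xG r a), ih hm']
    have h2 : xG 23 ((cc r s : K) * (a * b)) * xG 23 (ff r a m) = xG 23 (ff r a m) * xG 23 ((cc r s : K) * (a * b)) := by
      rw [← xG_add, ← xG_add, add_comm]
    rw [h2]
    simp only [mul_assoc]

theorem main (l m : List (ℕ × K)) (hl : ∀ x ∈ l, x.1 ∈ Rt) (hm : ∀ x ∈ m, x.1 ∈ Rt) :
    pr l * pr m = pr m * pr l * xG 23 ((l.map fun x => ff x.1 x.2 m).sum) := by
  induction l with
  | nil => simp [pr, xG_zero]
  | cons x l ih =>
    obtain ⟨r, a⟩ := x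
    have hr := hl (r, a) (List.mem_cons_self ..)
    have hl' : ∀ x ∈ l, x.1 ∈ Rt := fun y hy => hl y (List.mem_cons_of_mem _ hy)
    have h1 : (((r, a) :: l).map fun x => ff x.1 x.2 m).sum = ff r a m + (l.map fun x => ff x.1 x.2 m).sum :=
      List.sum_cons
    rw [pr_cons, mul_assoc, ih hl', h1, xG_add, ← mul_assoc, ← mul_assoc, step hr a m hm]
    rw [mul_assoc _ (xG 23 (ff r a m)) (pr l), ← pr_z l hl']
    simp only [mul_assoc]

/-- the commutator of `x₁₄(1)` and `X(t)` -/
theorem comm_X (a b c : K) : ⁅xG 14 (1 : K), xG 18 a * xG 13 b * xG 12 c⁆ =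
    pr [(19, a), (21, a * b), (16, -b), (22, a * b * c), (17, -(b * c)), (20, a * c), (15, -c)] := by
  rw [commutatorElement_def, mul_inv_eq_iff_eq_mul, mul_inv_eq_iff_eq_mul]
  have e1 := fun z => c_some (K := K) (r := 14) (s := 18) (k := 19) (c := 1) (by norm_num) (by norm_num) (by norm_num)
    (by decide +kernel) 1 a z
  have e2 := fun z => c_some (K := K) (r := 14) (s := 13) (k := 16) (c := -1) (by norm_num) (by norm_num) (by norm_num)
    (by decide +kernel) 1 b z
  have e3 := fun z => c_some (K := K) (r := 14) (s := 12) (k := 15) (c := -1) (by norm_num) (by norm_num) (by norm_num)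
    (by decide +kernel) 1 c z
  have e4 := fun z => c_some (K := K) (r := 13) (s := 15) (k := 17) (c := 1) (by norm_num) (by norm_num) (by norm_num)
    (by decide +kernel) b (-c) z
  have e5 := fun z => c_some (K := K) (r := 18) (s := 16) (k := 21) (c := -1) (by norm_num) (by norm_num) (by norm_num)
    (by decide +kernel) a (-b) z
  have e6 := fun z => c_some (K := K) (r := 18) (s := 17) (k := 22) (c := -1) (by norm_num) (by norm_num) (by norm_num)
    (by decide +kernel) a (-(b * c)) z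
  have e7 := fun z => c_some (K := K) (r := 18) (s := 15) (k := 20) (c := -1) (by norm_num) (by norm_num) (by norm_num)
    (by decide +kernel) a (-c) z
  have h0 : xG 14 (1 : K) * (xG 18 a * xG 13 b * xG 12 c) = xG 14 1 * (xG 18 a * (xG 13 b * (xG 12 c * 1))) := by
    simp only [mul_assoc, mul_one]
  rw [h0, e1, e2, e3]
  simp only [Int.cast_one, Int.cast_neg, one_mul, neg_mul, mul_one, mul_neg, neg_neg] at e4 e5 e6 e7 ⊢
  rw [e4, e5, e6, e7]
  simp only [pr, List.map_cons, List.map_nil, List.prod_cons, List.prod_nil, mul_one, mul_assoc]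

theorem comm_WW (a b c : K) (h : pr [(19, a), (21, a * b), (16, -b), (22, a * b * c), (17, -(b * c)), (20, a * c), (15, -c)] *
    pr [(19, (1 : K)), (21, 1), (16, -1), (22, 1), (17, -1), (20, 1), (15, -1)] =
    pr [(19, (1 : K)), (21, 1), (16, -1), (22, 1), (17, -1), (20, 1), (15, -1)] *
    pr [(19, a), (21, a * b), (16, -b), (22, a * b * c), (17, -(b * c)), (20, a * c), (15, -c)]) :
    a + b + c - (b * c + a * c + a * b) = 0 := by
  have h1 := main (K := K) [(19, a), (21, a * b), (16, -b), (22, a * b * c), (17, -(b * c)), (20, a * c), (15, -c)]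
    [(19, (1 : K)), (21, 1), (16, -1), (22, 1), (17, -1), (20, 1), (15, -1)] (by simp [Rt]) (by simp [Rt])
  rw [h] at h1
  have h2 := (mul_eq_left.1 h1.symm)
  rw [D4RGD.xG_eq_one_iff (by norm_num)] at h2
  have t1 : ∀ r ∈ [19, 21, 16, 22, 17, 20, 15], ∀ s ∈ [19, 21, 16, 22, 17, 20, 15],
      cc r s = if (r, s) ∈ [(19, 17), (15, 21), (16, 20)] then -1 else
        if (r, s) ∈ [(17, 19), (21, 15), (20, 16)] then 1 else 0 := by decide +kernel
  simp only [ff, List.map_cons, List.map_nil, List.sum_cons, List.sum_nil] at h2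
  simp only [List.forall_mem_cons, List.not_mem_nil, false_imp_iff, implies_true, and_true] at t1
  simp only [t1] at h2
  norm_num at h2
  linear_combination h2

open Polynomial in
theorem exists_t [Fintype K] {q : ℕ} {φ : K →+* K} (hq : 1 < q) (hK : Fintype.card K = q ^ 3)
    (hφ : ∀ x, φ x = x ^ q) :
    ∃ t : K, t + φ t + φ (φ t) - (φ t * φ (φ t) + t * φ (φ t) + t * φ t) ≠ 0 := by
  by_contra hcon
  push Not at hcon
  set P : K[X] := X + X ^ q + X ^ (q ^ 2) - (X ^ (q + q ^ 2) + X ^ (1 + q ^ 2) + X ^ (1 + q)) with hP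
  have hlt : 1 < q ^ 2 := Nat.one_lt_pow (by norm_num) hq
  have hc : P.coeff (q + q ^ 2) = -1 := by
    rw [hP]
    simp only [coeff_sub, coeff_add, coeff_X_pow, coeff_X]
    rw [if_neg (by omega), if_neg (by omega), if_neg (by omega), if_pos trivial, if_neg (by omega),
      if_neg (by omega)]
    ring
  have hP0 : P ≠ 0 := by
    intro h
    rw [h, coeff_zero] at hc
    exact one_ne_zero (neg_eq_zero.1 hc.symm)
  have hdeg : P.natDegree ≤ q + q ^ 2 := by
    rw [← max_self (q + q ^ 2), hP]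
    refine natDegree_sub_le_of_le (natDegree_add_le_of_degree_le (natDegree_add_le_of_degree_le ?_ ?_) ?_)
      (natDegree_add_le_of_degree_le (natDegree_add_le_of_degree_le ?_ ?_) ?_)
    · exact natDegree_X_le.trans (by omega)
    · exact (natDegree_X_pow_le _).trans (by omega)
    · exact (natDegree_X_pow_le _).trans (by omega)
    · exact (natDegree_X_pow_le _)
    · exact (natDegree_X_pow_le _).trans (by omega)
    · exact (natDegree_X_pow_le _).trans (by omega)
  refine hP0 (eq_zero_of_natDegree_lt_card_of_eval_eq_zero P (f := (id : K → K)) Function.injective_id ?_ ?_)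
  · intro t
    have h := hcon t
    rw [hφ t, hφ (t ^ q), ← pow_mul, ← pow_two q] at h
    rw [hP]
    simp only [id, eval_sub, eval_add, eval_X, eval_pow]
    rw [pow_add t q, pow_add t 1, pow_add t 1, pow_one]
    exact h
  · rw [hK]
    refine lt_of_le_of_lt hdeg ?_
    nlinarith

variable (K) in
/-- **`³D₄(q)`, every `q`** -/
theorem dd_D4t {p : ℕ} [Fact p.Prime] [CharP K p] [Fintype K] {q : ℕ} (hq : IsPrimePow q)
    (hK : Fintype.card K = q ^ 3) : DD p ↥(twistedD4 K q) := by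
  obtain ⟨φ, hφ⟩ := D4Fixed.exists_frob hq hK
  obtain ⟨t, ht⟩ := exists_t hq.one_lt hK hφ
  have e14 : (xG 14 (1 : K)) = D4U.elt φ 1 0 0 0 0 0 := by
    rw [D4U.elt_eq]
    simp [xG_zero]
  have eX : ∀ t : K, xG 18 t * xG 13 (φ t) * xG 12 (φ (φ t)) = D4U.elt φ 0 t 0 0 0 0 := by
    intro t
    rw [D4U.elt_eq]
    simp [xG_zero]
  have m14 : xG 14 (1 : K) ∈ twistedD4 K q := D4U.xG14_mem hφ (map_one φ)
  have mX : ∀ t : K, xG 18 t * xG 13 (φ t) * xG 12 (φ (φ t)) ∈ twistedD4 K q := by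
    intro t
    have := D4Fixed.X_mem (q := q) hφ t
    rwa [D4Perfect.X_def'] at this
  have p14 : (⟨_, m14⟩ : ↥(twistedD4 K q)) ∈ (chevD4.posUnipotent K).subgroupOf (twistedD4 K q) := by
    rw [Subgroup.mem_subgroupOf]
    show xG 14 (1 : K) ∈ chevD4.posUnipotent K
    rw [e14]
    exact D4U.elt_mem_U (φ := φ) _ _ _ _ _ _
  have pX : ∀ t : K, (⟨_, mX t⟩ : ↥(twistedD4 K q)) ∈ (chevD4.posUnipotent K).subgroupOf (twistedD4 K q) := by
    intro t
    rw [Subgroup.mem_subgroupOf]
    show xG 18 t * xG 13 (φ t) * xG 12 (φ (φ t)) ∈ chevD4.posUnipotent K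
    rw [eX]
    exact D4U.elt_mem_U (φ := φ) _ _ _ _ _ _
  refine DD.of_mem _ (isPGroup_pos_subgroupOf (D := chevD4) (by simp) (twistedD4 K q)) p14 (pX t) p14 (pX 1) ?_
  intro h
  have h1 : ⁅⁅xG 14 (1 : K), xG 18 t * xG 13 (φ t) * xG 12 (φ (φ t))⁆,
      ⁅xG 14 (1 : K), xG 18 1 * xG 13 (φ 1) * xG 12 (φ (φ 1))⁆⁆ = 1 := congrArg Subtype.val h
  rw [map_one, map_one, comm_X, comm_X, commutatorElement_eq_one_iff_mul_comm, one_mul, one_mul] at h1
  exact ht (comm_WW t (φ t) (φ (φ t)) h1)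

end D4

end Cfsg.Agent.H218.HT
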